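import Cfsg.Agent.Subnormal.Basic
import Mathlib.GroupTheory.Sylow
import Mathlib.GroupTheory.Nilpotent
import Mathlib.GroupTheory.GroupAction.Quotient

/-!
The number of elements of the subnormalizer of a `p`-subgroup.
-/

set_option autoImplicit false

universe u

namespace CfsgLib.Subnormalizer

open Finset
open scoped Pointwise

variable {G : Type u} [Group G]

/-- The elements normalizing some `p`-subgroup that contains `H`. -/
def pnSet (p : ℕ) (H : Subgroup G) : Set G :=
  {g | ∃ R : Subgroup G, IsPGroup p R ∧ H ≤ R ∧ g ∈ Subgroup.normalizer (R : Set G)}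

theorem mem_pnSet_iff {p : ℕ} [Fact p.Prime] [Finite G] {H : Subgroup G} (hH : IsPGroup p H)
    (g : G) :
    g ∈ pnSet p H ↔ (H.subgroupOf (H ⊔ Subgroup.zpowers g)).IsSubnormal := by
  constructor
  · rintro ⟨R, hR, hHR, hg⟩
    have hle : H ⊔ Subgroup.zpowers g ≤ R ⊔ Subgroup.zpowers g := sup_le_sup_right hHR _
    refine CfsgLib.Subnormal.subgroupOf_of_le hle ?_
    have hR' : (R.subgroupOf (R ⊔ Subgroup.zpowers g)).Normal := by
      refine (Subgroup.normal_subgroupOf_iff_le_normalizer le_sup_left).2 ?_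
      exact sup_le Subgroup.le_normalizer (Subgroup.zpowers_le.2 hg)
    refine Subgroup.IsSubnormal.trans (K := R.subgroupOf (R ⊔ Subgroup.zpowers g))
      (fun x hx => hHR hx) ?_ hR'.isSubnormal
    have hp : IsPGroup p ↥(R.subgroupOf (R ⊔ Subgroup.zpowers g)) :=
      hR.of_equiv (Subgroup.subgroupOfEquivOfLe le_sup_left).symm
    haveI : Group.IsNilpotent ↥(R.subgroupOf (R ⊔ Subgroup.zpowers g)) := hp.isNilpotent
    exact CfsgLib.Subnormal.isSubnormal_of_isNilpotent _
  · intro h
    obtain ⟨N, hN, hNp, hHN⟩ := CfsgLib.Subnormal.exists_normal_isPGroup_of_isSubnormal h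
      (hH.of_equiv (Subgroup.subgroupOfEquivOfLe le_sup_left).symm)
    refine ⟨N.map (H ⊔ Subgroup.zpowers g).subtype, hNp.map _, ?_, ?_⟩
    · exact fun x hx => ⟨⟨x, Subgroup.mem_sup_left hx⟩, hHN (Subgroup.mem_subgroupOf.2 hx), rfl⟩
    · have hg : g ∈ H ⊔ Subgroup.zpowers g := Subgroup.mem_sup_right (Subgroup.mem_zpowers g)
      refine Subgroup.le_normalizer_map _ ⟨⟨g, hg⟩, ?_, rfl⟩
      haveI := hN
      rw [Subgroup.normalizer_eq_top]
      trivial

section Weight

variable [Fintype (Subgroup G)]

open scoped Classical in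
/-- The weight of a subgroup above `H`: the sum of the weights over `(H, R]` is `1`. -/
noncomputable def wt (H : Subgroup G) : Subgroup G → ℤ :=
  wellFounded_lt.fix fun K ih =>
    1 - ∑ L ∈ (univ.filter fun L : Subgroup G => H < L ∧ L < K).attach,
      ih L.1 ((Finset.mem_filter.1 L.2).2.2)

open scoped Classical in
theorem wt_eq (H K : Subgroup G) :
    wt H K = 1 - ∑ L ∈ univ.filter (fun L : Subgroup G => H < L ∧ L < K), wt H L := by
  conv_lhs => rw [wt, WellFounded.fix_eq]
  rw [← Finset.sum_attach (univ.filter fun L : Subgroup G => H < L ∧ L < K) (fun L => wt H L)]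
  rfl

open scoped Classical in
theorem sum_wt {H R : Subgroup G} (h : H < R) :
    ∑ K ∈ univ.filter (fun K : Subgroup G => H < K ∧ K ≤ R), wt H K = 1 := by
  have e : univ.filter (fun K : Subgroup G => H < K ∧ K ≤ R) =
      insert R (univ.filter fun K : Subgroup G => H < K ∧ K < R) := by
    ext K
    simp only [mem_filter, mem_univ, true_and, Finset.mem_insert]
    constructor
    · rintro ⟨h1, h2⟩
      rcases h2.eq_or_lt with rfl | h3
      · exact Or.inl rfl
      · exact Or.inr ⟨h1, h3⟩
    · rintro (rfl | ⟨h1, h2⟩)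
      · exact ⟨h, le_rfl⟩
      · exact ⟨h1, h2.le⟩
  rw [e, Finset.sum_insert (by simp), wt_eq H R]
  ring

theorem wt_eq_zero {p : ℕ} [Fact p.Prime] [Finite G] {H : Subgroup G} :
    ∀ K : Subgroup G, IsPGroup p K → H < K → ¬ K ≤ Subgroup.normalizer (H : Set G) →
      wt H K = 0 := by
  classical
  intro K
  induction K using WellFoundedLT.induction with
  | _ K ih =>
  intro hK hHK hnK
  set M : Subgroup G := K ⊓ Subgroup.normalizer (H : Set G) with hM
  haveI : Group.IsNilpotent ↥K := hK.isNilpotent
  have hHM : H < M := by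
    have hlt : H.subgroupOf K < ⊤ := by
      rw [lt_top_iff_ne_top]
      intro e
      exact hHK.not_ge (Subgroup.subgroupOf_eq_top.1 e)
    have := Group.normalizerCondition_of_isNilpotent (G := ↥K) _ hlt
    obtain ⟨x, hx, hxH⟩ := SetLike.exists_of_lt this
    refine lt_of_le_of_ne (le_inf hHK.le Subgroup.le_normalizer) fun e => hxH ?_
    have hxM : (x : G) ∈ M := by
      refine Subgroup.mem_inf.2 ⟨x.2, ?_⟩
      rw [Subgroup.mem_normalizer_iff] at hx ⊢
      intro h
      constructor
      · intro hh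
        exact ((hx ⟨h, hHK.le hh⟩).1 hh)
      · intro hh
        have hk : h ∈ K := by
          have := K.mul_mem (K.mul_mem (K.inv_mem x.2) (hHK.le hh)) x.2
          simpa [mul_assoc] using this
        exact (hx ⟨h, hk⟩).2 hh
    rw [← e] at hxM
    exact hxM
  have hMK : M ≤ K := inf_le_left
  have h1 := sum_wt (H := H) hHK
  have h2 := sum_wt (H := H) hHM
  rw [← Finset.sum_filter_add_sum_filter_not _ (fun L : Subgroup G => L ≤ M)] at h1
  have e1 : (univ.filter fun L : Subgroup G => H < L ∧ L ≤ K).filter (fun L => L ≤ M) =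
      univ.filter (fun L : Subgroup G => H < L ∧ L ≤ M) := by
    ext L
    simp only [mem_filter, mem_univ, true_and]
    exact ⟨fun h => ⟨h.1.1, h.2⟩, fun h => ⟨⟨h.1, h.2.trans hMK⟩, h.2⟩⟩
  rw [e1, h2] at h1
  rw [Finset.sum_eq_single K] at h1
  · linarith
  · intro L hL hne
    simp only [mem_filter, mem_univ, true_and] at hL
    refine ih L (lt_of_le_of_ne hL.1.2 hne) (hK.to_le hL.1.2) hL.1.1 fun hle => hL.2 ?_
    exact le_inf hL.1.2 hle
  · intro hKn
    simp only [mem_filter, mem_univ, true_and] at hKn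
    exact absurd ⟨⟨hHK, le_rfl⟩, fun hle => hnK (hle.trans inf_le_right)⟩ hKn

end Weight

/-- The smallest subgroup containing `K` and normalized by `g`. -/
def inv_closure (g : G) (K : Subgroup G) : Subgroup G :=
  sInf {R : Subgroup G | K ≤ R ∧ g ∈ Subgroup.normalizer (R : Set G)}

theorem le_inv_closure (g : G) (K : Subgroup G) : K ≤ inv_closure g K :=
  le_sInf fun _ hR => hR.1

theorem inv_closure_le {g : G} {K R : Subgroup G} (h : K ≤ R)
    (hg : g ∈ Subgroup.normalizer (R : Set G)) : inv_closure g K ≤ R :=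
  sInf_le ⟨h, hg⟩

theorem mem_normalizer_inv_closure (g : G) (K : Subgroup G) :
    g ∈ Subgroup.normalizer (inv_closure g K : Set G) := by
  rw [Subgroup.mem_normalizer_iff]
  intro h
  simp only [inv_closure, Subgroup.mem_sInf, Set.mem_setOf_eq]
  constructor
  · intro hh R hR
    exact ((Subgroup.mem_normalizer_iff.1 hR.2) h).1 (hh R hR)
  · intro hh R hR
    exact ((Subgroup.mem_normalizer_iff.1 hR.2) h).2 (hh R hR)

theorem mem_pnSet_iff_inv_closure {p : ℕ} {g : G} {K : Subgroup G} :
    g ∈ pnSet p K ↔ IsPGroup p ↥(inv_closure g K) :=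
  ⟨fun ⟨_, hR, hKR, hg⟩ => hR.to_le (inv_closure_le hKR hg),
    fun h => ⟨_, h, le_inv_closure g K, mem_normalizer_inv_closure g K⟩⟩

open scoped Classical in
theorem sum_wt_pnSet_of_notMem [Fintype (Subgroup G)] {p : ℕ} {g : G} {H : Subgroup G}
    (hg : g ∉ Subgroup.normalizer (H : Set G)) :
    ∑ K ∈ univ.filter (fun K : Subgroup G => H < K ∧ IsPGroup p K ∧ g ∈ pnSet p K), wt H K =
      if g ∈ pnSet p H then 1 else 0 := by
  by_cases hgS : g ∈ pnSet p H
  swap
  · rw [if_neg hgS]
    refine Finset.sum_eq_zero fun K hK => ?_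
    simp only [mem_filter, mem_univ, true_and] at hK
    obtain ⟨hHK, _, R, hR, hKR, hgR⟩ := hK
    exact absurd ⟨R, hR, hHK.le.trans hKR, hgR⟩ hgS
  rw [if_pos hgS]
  set T := univ.filter (fun K : Subgroup G => H < K ∧ IsPGroup p K ∧ g ∈ pnSet p K) with hT
  set R₀ := inv_closure g H with hR₀
  have hR₀p : IsPGroup p ↥R₀ := mem_pnSet_iff_inv_closure.1 hgS
  have hlt : ∀ R : Subgroup G, H ≤ R → g ∈ Subgroup.normalizer (R : Set G) → H < R := fun R h1 h2 =>
    lt_of_le_of_ne h1 fun e => hg (e ▸ h2)
  set U := univ.filter (fun R : Subgroup G => IsPGroup p R ∧ H ≤ R ∧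
    g ∈ Subgroup.normalizer (R : Set G)) with hU
  have hmaps : ∀ K ∈ T, inv_closure g K ∈ U := by
    intro K hK
    simp only [hT, mem_filter, mem_univ, true_and] at hK
    simp only [hU, mem_filter, mem_univ, true_and]
    exact ⟨mem_pnSet_iff_inv_closure.1 hK.2.2, hK.1.le.trans (le_inv_closure g K),
      mem_normalizer_inv_closure g K⟩
  have key : ∀ R ∈ U, ∑ K ∈ T.filter (fun K => inv_closure g K = R), wt H K =
      if R = R₀ then 1 else 0 := by
    intro R
    induction R using WellFoundedLT.induction with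
    | _ R ih =>
    intro hR
    simp only [hU, mem_filter, mem_univ, true_and] at hR
    obtain ⟨hRp, hHR, hgR⟩ := hR
    have h1 := sum_wt (H := H) (hlt R hHR hgR)
    have e1 : univ.filter (fun K : Subgroup G => H < K ∧ K ≤ R) =
        T.filter (fun K => inv_closure g K ≤ R) := by
      ext K
      simp only [hT, mem_filter, mem_univ, true_and]
      constructor
      · rintro ⟨h2, h3⟩
        exact ⟨⟨h2, hRp.to_le h3, R, hRp, h3, hgR⟩, inv_closure_le h3 hgR⟩
      · rintro ⟨⟨h2, -⟩, h3⟩
        exact ⟨h2, (le_inv_closure g K).trans h3⟩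
    have e2 : ∑ K ∈ T.filter (fun K => inv_closure g K ≤ R), wt H K =
        ∑ R' ∈ U.filter (fun R' => R' ≤ R),
          ∑ K ∈ T.filter (fun K => inv_closure g K = R'), wt H K := by
      rw [← Finset.sum_fiberwise_of_maps_to (g := inv_closure g)
        (t := U.filter (fun R' => R' ≤ R))]
      · refine Finset.sum_congr rfl fun R' hR' => Finset.sum_congr ?_ fun _ _ => rfl
        simp only [mem_filter] at hR'
        ext K
        simp only [mem_filter]
        exact ⟨fun h => ⟨h.1.1, h.2⟩, fun h => ⟨⟨h.1, h.2.symm ▸ hR'.2⟩, h.2⟩⟩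
      · intro K hK
        simp only [mem_filter] at hK ⊢
        exact ⟨hmaps K hK.1, hK.2⟩
    have hRU : R ∈ U.filter (fun R' => R' ≤ R) := by
      simp only [hU, mem_filter, mem_univ, true_and]
      exact ⟨⟨hRp, hHR, hgR⟩, le_rfl⟩
    rw [e1, e2, ← Finset.add_sum_erase _ _ hRU] at h1
    have h3 : ∑ R' ∈ (U.filter (fun R' => R' ≤ R)).erase R,
        ∑ K ∈ T.filter (fun K => inv_closure g K = R'), wt H K =
        if R₀ ∈ (U.filter (fun R' => R' ≤ R)).erase R then 1 else 0 := by
      rw [← Finset.sum_ite_eq' ((U.filter (fun R' => R' ≤ R)).erase R) R₀ (fun _ => (1 : ℤ))]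
      refine Finset.sum_congr rfl fun R' hR' => ?_
      obtain ⟨hne, hR''⟩ := Finset.mem_erase.1 hR'
      obtain ⟨hR'U, hR'R⟩ := Finset.mem_filter.1 hR''
      exact ih R' (lt_of_le_of_ne hR'R hne) hR'U
    rw [h3] at h1
    have hR₀R : R₀ ≤ R := inv_closure_le hHR hgR
    have hR₀U : R₀ ∈ U := by
      simp only [hU, mem_filter, mem_univ, true_and]
      exact ⟨hR₀p, le_inv_closure g H, mem_normalizer_inv_closure g H⟩
    by_cases hRR : R = R₀
    · rw [if_pos hRR]
      rw [if_neg (fun h => (Finset.mem_erase.1 h).1 hRR.symm)] at h1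
      linarith
    · rw [if_neg hRR]
      rw [if_pos (Finset.mem_erase.2 ⟨Ne.symm hRR, Finset.mem_filter.2 ⟨hR₀U, hR₀R⟩⟩)] at h1
      linarith
  rw [← Finset.sum_fiberwise_of_maps_to hmaps, Finset.sum_congr rfl key, Finset.sum_ite_eq',
    if_pos]
  simp only [hU, mem_filter, mem_univ, true_and]
  exact ⟨hR₀p, le_inv_closure g H, mem_normalizer_inv_closure g H⟩

open scoped Classical in
/-- `Σ_{Q ⊇ H} |N(Q)|` over the Sylow `p`-subgroups `Q`. -/
noncomputable def sylSum (p : ℕ) (H : Subgroup G) [Fintype (Sylow p G)] : ℤ :=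
  ∑ Q : Sylow p G, if H ≤ (Q : Subgroup G) then
    (Nat.card (Subgroup.normalizer ((Q : Subgroup G) : Set G)) : ℤ) else 0

theorem card_normalizer_sylow [Finite G] {p : ℕ} [Fact p.Prime] (P Q : Sylow p G) :
    Nat.card (Subgroup.normalizer ((Q : Subgroup G) : Set G)) =
      Nat.card (Subgroup.normalizer ((P : Subgroup G) : Set G)) := by
  have hP : Nat.card (Sylow p G) = (Subgroup.normalizer ((P : Subgroup G) : Set G)).index :=
    P.card_eq_index_normalizer
  have hQ : Nat.card (Sylow p G) = (Subgroup.normalizer ((Q : Subgroup G) : Set G)).index :=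
    Q.card_eq_index_normalizer
  have eP := (Subgroup.normalizer ((P : Subgroup G) : Set G)).card_mul_index
  have eQ := (Subgroup.normalizer ((Q : Subgroup G) : Set G)).card_mul_index
  rw [← hP] at eP
  rw [← hQ] at eQ
  exact Nat.eq_of_mul_eq_mul_right Nat.card_pos (eQ.trans eP.symm)

theorem sum_normalizer_sylow [Finite G] {p : ℕ} [Fact p.Prime] [Fintype (Sylow p G)] :
    ∑ Q : Sylow p G, (Nat.card (Subgroup.normalizer ((Q : Subgroup G) : Set G)) : ℤ) =
      (Nat.card G : ℤ) := by
  obtain ⟨P⟩ := (inferInstance : Nonempty (Sylow p G))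
  simp only [fun Q => card_normalizer_sylow (G := G) P Q, Finset.sum_const, Finset.card_univ,
    nsmul_eq_mul]
  rw [Fintype.card_eq_nat_card, show Nat.card (Sylow p G) =
    (Subgroup.normalizer ((P : Subgroup G) : Set G)).index from P.card_eq_index_normalizer]
  rw [← Subgroup.index_mul_card (Subgroup.normalizer ((P : Subgroup G) : Set G))]
  push_cast
  ring

open scoped Classical in
theorem card_pnSet_eq_sum [Fintype G] (p : ℕ) (H : Subgroup G) :
    (Nat.card (pnSet p H) : ℤ) = ∑ g : G, if g ∈ pnSet p H then 1 else 0 := by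
  rw [Finset.sum_boole, Nat.card_eq_card_toFinset]
  congr 2
  ext
  simp

/-- The contribution of the elements normalizing `H`. -/
theorem card_normalizer_part [Finite G] {p : ℕ} [Fact p.Prime] {H K : Subgroup G}
    (hH : IsPGroup p H) (hKN : K ≤ Subgroup.normalizer (H : Set G)) :
    Nat.card {g : G // g ∈ Subgroup.normalizer (H : Set G) ∧ g ∈ pnSet p K} =
      Nat.card H * Nat.card (pnSet p ((K.subgroupOf (Subgroup.normalizer (H : Set G))).map
        (QuotientGroup.mk' (H.subgroupOf (Subgroup.normalizer (H : Set G)))))) := by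
  set N := Subgroup.normalizer (H : Set G) with hN
  haveI : (H.subgroupOf N).Normal := Subgroup.normal_in_normalizer
  set π := QuotientGroup.mk' (H.subgroupOf N) with hπ
  set t := pnSet p ((K.subgroupOf N).map π) with ht
  have hHN : H ≤ N := Subgroup.le_normalizer
  have key : ∀ x : N, (x : G) ∈ pnSet p K ↔ π x ∈ t := by
    intro x
    constructor
    · rintro ⟨R, hR, hKR, hxR⟩
      refine ⟨(R.subgroupOf N).map π, ?_, Subgroup.map_mono (fun y hy => hKR hy), ?_⟩
      · exact (hR.comap_of_injective N.subtype N.subtype_injective).map π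
      · refine Subgroup.le_normalizer_map π ⟨x, ?_, rfl⟩
        rw [SetLike.mem_coe, Subgroup.mem_normalizer_iff]
        intro h
        exact Subgroup.mem_normalizer_iff.1 hxR (h : G)
    · rintro ⟨R, hR, hKR, hxR⟩
      refine ⟨(R.comap π).map N.subtype, ?_, ?_, ?_⟩
      · refine IsPGroup.map ?_ _
        refine hR.comap_of_ker_isPGroup π ?_
        rw [hπ, QuotientGroup.ker_mk']
        exact hH.of_equiv (Subgroup.subgroupOfEquivOfLe hHN).symm
      · rw [← Subgroup.map_subgroupOf_eq_of_le hKN]
        exact Subgroup.map_mono (Subgroup.map_le_iff_le_comap.1 hKR)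
      · refine Subgroup.le_normalizer_map N.subtype ⟨x, ?_, rfl⟩
        rw [SetLike.mem_coe, Subgroup.mem_normalizer_iff]
        intro h
        have := Subgroup.mem_normalizer_iff.1 hxR (π h)
        simpa [Subgroup.mem_comap] using this
  calc Nat.card {g : G // g ∈ N ∧ g ∈ pnSet p K}
      = Nat.card ↑((QuotientGroup.mk : N → N ⧸ H.subgroupOf N) ⁻¹' t) :=
        Nat.card_congr
          { toFun := fun g => ⟨⟨g.1, g.2.1⟩, (key ⟨g.1, g.2.1⟩).1 g.2.2⟩
            invFun := fun x => ⟨(x.1 : G), x.1.2, (key x.1).2 x.2⟩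
            left_inv := fun _ => rfl
            right_inv := fun _ => rfl }
    _ = Nat.card H * Nat.card t := by
        rw [Nat.card_congr (QuotientGroup.preimageMkEquivSubgroupProdSet (H.subgroupOf N) t),
          Nat.card_prod, Nat.card_congr (Subgroup.subgroupOfEquivOfLe hHN).toEquiv]

open scoped Classical in
theorem card_pnSet_aux (p : ℕ) [Fact p.Prime] (n : ℕ) :
    ∀ (G : Type u) [Group G] [Fintype G] [Fintype (Sylow p G)], Nat.card G ≤ n →
      ∀ H : Subgroup G, IsPGroup p H → (Nat.card (pnSet p H) : ℤ) = sylSum p H := by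
  induction n using Nat.strong_induction_on with
  | _ n ihn =>
  intro G _ _ _ hn H
  haveI : Fintype (Subgroup G) := Fintype.ofFinite _
  induction H using WellFoundedGT.induction with
  | _ H ih =>
  intro hH
  by_cases hb : H = ⊥
  · subst hb
    have e : pnSet p (⊥ : Subgroup G) = Set.univ := by
      refine Set.eq_univ_of_forall fun g => ⟨⊥, IsPGroup.of_bot, le_rfl, ?_⟩
      rw [Subgroup.normalizer_eq_top]
      trivial
    rw [e, Nat.card_congr (Equiv.Set.univ G), sylSum]
    simp only [bot_le, if_true]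
    exact sum_normalizer_sylow.symm
  by_cases hmax : ∀ K : Subgroup G, IsPGroup p K → H ≤ K → K = H
  · set P : Sylow p G := ⟨H, hH, fun {K} h1 h2 => hmax K h1 h2⟩
    have e : pnSet p H = (Subgroup.normalizer (H : Set G) : Set G) := by
      ext g
      exact ⟨fun ⟨R, hR, hHR, hg⟩ => (hmax R hR hHR) ▸ hg, fun hg => ⟨H, hH, le_rfl, hg⟩⟩
    rw [e, sylSum, Finset.sum_eq_single P]
    · rw [if_pos (show H ≤ (P : Subgroup G) from le_rfl)]
      rfl
    · intro Q _ hQ
      rw [if_neg]
      exact fun h => hQ (Sylow.ext (hmax Q Q.2 h))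
    · simp
  push_neg at hmax
  obtain ⟨K₀, hK₀, hHK₀, hne₀⟩ := hmax
  have hHK₀' : H < K₀ := lt_of_le_of_ne hHK₀ (Ne.symm hne₀)
  set N := Subgroup.normalizer (H : Set G) with hN
  set T := univ.filter (fun K : Subgroup G => H < K ∧ IsPGroup p K) with hT
  have hmemT : ∀ K, K ∈ T ↔ H < K ∧ IsPGroup p K := fun K => by simp [hT]
  -- the weighted sum of the right hand sides
  have hA : ∑ K ∈ T, wt H K * sylSum p K = sylSum p H := by
    simp only [sylSum, Finset.mul_sum]
    rw [Finset.sum_comm]
    refine Finset.sum_congr rfl fun Q _ => ?_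
    simp only [mul_ite, mul_zero, ← Finset.sum_filter, ← Finset.sum_mul]
    by_cases hQ : H ≤ (Q : Subgroup G)
    · rw [if_pos hQ]
      have hlt : H < (Q : Subgroup G) := by
        refine lt_of_le_of_ne hQ fun e => ?_
        exact hne₀ (by rw [Q.3 hK₀ (e ▸ hHK₀), e])
      have e1 : T.filter (fun K => K ≤ (Q : Subgroup G)) =
          univ.filter (fun K : Subgroup G => H < K ∧ K ≤ (Q : Subgroup G)) := by
        ext K
        simp only [mem_filter, hmemT, mem_univ, true_and]
        exact ⟨fun h => ⟨h.1.1, h.2⟩, fun h => ⟨⟨h.1, Q.2.to_le h.2⟩, h.2⟩⟩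
      rw [e1, sum_wt hlt, one_mul]
    · rw [if_neg hQ]
      refine mul_eq_zero_of_left (Finset.sum_eq_zero fun K hK => absurd ?_ hQ) _
      simp only [mem_filter, hmemT] at hK
      exact hK.1.1.le.trans hK.2
  -- the elements normalizing `H`
  have hC : ∑ K ∈ T, wt H K *
      (∑ g : G, if g ∈ N ∧ g ∈ pnSet p K then (1 : ℤ) else 0) = (Nat.card N : ℤ) := by
    haveI : (H.subgroupOf N).Normal := Subgroup.normal_in_normalizer
    set X := N ⧸ H.subgroupOf N
    set π := QuotientGroup.mk' (H.subgroupOf N) with hπ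
    have hHN : H ≤ N := Subgroup.le_normalizer
    have hcardN : Nat.card N = Nat.card X * Nat.card H := by
      rw [Subgroup.card_eq_card_quotient_mul_card_subgroup (H.subgroupOf N),
        Nat.card_congr (Subgroup.subgroupOfEquivOfLe hHN).toEquiv]
    have hX : Nat.card X < n := by
      refine lt_of_lt_of_le ?_ ((Subgroup.card_le_card_group N).trans hn)
      rw [hcardN]
      refine lt_mul_of_one_lt_right Nat.card_pos ?_
      rw [Subgroup.one_lt_card_iff_ne_bot]
      exact hb
    haveI : Fintype X := Fintype.ofFinite _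
    haveI : Fintype (Sylow p X) := Fintype.ofFinite _
    have hK : ∀ K ∈ T, wt H K * (∑ g : G, if g ∈ N ∧ g ∈ pnSet p K then (1 : ℤ) else 0) =
        ∑ Q : Sylow p X, if K ≤ ((Q : Subgroup X).comap π).map N.subtype then
          wt H K * ((Nat.card H : ℤ) *
            Nat.card (Subgroup.normalizer ((Q : Subgroup X) : Set X))) else 0 := by
      intro K hK
      rw [hmemT] at hK
      by_cases hKN : K ≤ N
      · have e1 : (∑ g : G, if g ∈ N ∧ g ∈ pnSet p K then (1 : ℤ) else 0) =
            (Nat.card {g : G // g ∈ N ∧ g ∈ pnSet p K} : ℤ) := by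
          rw [Finset.sum_boole, Nat.card_eq_fintype_card, Fintype.card_subtype]
        rw [e1, card_normalizer_part hH hKN, Nat.cast_mul,
          ihn _ hX X le_rfl ((K.subgroupOf N).map π)
            ((hK.2.comap_of_injective N.subtype N.subtype_injective).map π),
          sylSum, ← mul_assoc, Finset.mul_sum]
        refine Finset.sum_congr rfl fun Q _ => ?_
        have e2 : (K.subgroupOf N).map π ≤ (Q : Subgroup X) ↔
            K ≤ ((Q : Subgroup X).comap π).map N.subtype := by
          rw [Subgroup.map_le_iff_le_comap]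
          constructor
          · intro h
            rw [← Subgroup.map_subgroupOf_eq_of_le hKN]
            exact Subgroup.map_mono h
          · intro h x hx
            obtain ⟨y, hy, hyx⟩ := h hx
            obtain rfl : y = x := Subtype.ext hyx
            exact hy
        simp only [e2, mul_ite, mul_zero, mul_assoc]
      · rw [wt_eq_zero K hK.2 hK.1 hKN]
        simp
    rw [Finset.sum_congr rfl hK, Finset.sum_comm]
    have hQ : ∀ Q : Sylow p X, (∑ K ∈ T, if K ≤ ((Q : Subgroup X).comap π).map N.subtype then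
          wt H K * ((Nat.card H : ℤ) *
            Nat.card (Subgroup.normalizer ((Q : Subgroup X) : Set X))) else 0) =
        (Nat.card H : ℤ) * Nat.card (Subgroup.normalizer ((Q : Subgroup X) : Set X)) := by
      intro Q
      set R := ((Q : Subgroup X).comap π).map N.subtype with hR
      have hRp : IsPGroup p R := by
        refine IsPGroup.map ?_ _
        refine Q.2.comap_of_ker_isPGroup π ?_
        rw [hπ, QuotientGroup.ker_mk']
        exact hH.of_equiv (Subgroup.subgroupOfEquivOfLe hHN).symm
      have hHR : H < R := by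
        refine lt_of_le_of_ne ?_ ?_
        · intro x hx
          refine ⟨⟨x, hHN hx⟩, ?_, rfl⟩
          have h1 : π ⟨x, hHN hx⟩ = 1 := (QuotientGroup.eq_one_iff _).2 hx
          simp [h1]
        · -- `Q` is nontrivial, `H` not being a Sylow subgroup
          intro e
          have hcQ : Nat.card (Q : Subgroup X) = 1 := by
            have hb' : (Q : Subgroup X) = ⊥ := by
              rw [eq_bot_iff]
              intro y hy
              obtain ⟨x, rfl⟩ := QuotientGroup.mk'_surjective (H.subgroupOf N) y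
              have hxR : (x : G) ∈ R := ⟨x, hy, rfl⟩
              rw [← e] at hxR
              exact (QuotientGroup.eq_one_iff _).2 hxR
            rw [hb', Subgroup.card_bot]
          obtain ⟨k, hkK, hkH⟩ := SetLike.exists_of_lt (show H < K₀ ⊓ N from by
            haveI : Group.IsNilpotent ↥K₀ := hK₀.isNilpotent
            have hlt : H.subgroupOf K₀ < ⊤ := by
              rw [lt_top_iff_ne_top]
              exact fun e => hHK₀'.not_ge (Subgroup.subgroupOf_eq_top.1 e)
            obtain ⟨x, hx, hxH⟩ := SetLike.exists_of_lt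
              (Group.normalizerCondition_of_isNilpotent (G := ↥K₀) _ hlt)
            refine lt_of_le_of_ne (le_inf hHK₀ hHN) fun e' => hxH ?_
            have : (x : G) ∈ K₀ ⊓ N := by
              refine ⟨x.2, ?_⟩
              have hx' : x ∈ Subgroup.normalizer ((H.subgroupOf K₀) : Set ↥K₀) := hx
              rw [← Subgroup.comap_subtype] at hx'
              have h3 := Subgroup.le_normalizer_map K₀.subtype ⟨x, hx', rfl⟩
              rwa [Subgroup.comap_subtype, Subgroup.map_subgroupOf_eq_of_le hHK₀] at h3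
            rw [← e'] at this
            exact this)
          obtain ⟨Q', hQ'⟩ := (((hK₀.to_le inf_le_left).comap_of_injective N.subtype
            N.subtype_injective).map π).exists_le_sylow (P := ((K₀ ⊓ N).subgroupOf N).map π)
          have hcQ' : Nat.card (Q' : Subgroup X) = 1 := by
            rw [Sylow.card_eq_multiplicity, ← Sylow.card_eq_multiplicity Q, hcQ]
          have : π ⟨k, hkK.2⟩ ∈ (Q' : Subgroup X) := hQ' ⟨⟨k, hkK.2⟩, hkK, rfl⟩
          rw [Subgroup.card_eq_one.1 hcQ', Subgroup.mem_bot] at this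
          exact hkH ((QuotientGroup.eq_one_iff (N := H.subgroupOf N) (⟨k, hkK.2⟩ : N)).1 this)
      rw [← Finset.sum_filter, ← Finset.sum_mul]
      have e1 : T.filter (fun K => K ≤ R) =
          univ.filter (fun K : Subgroup G => H < K ∧ K ≤ R) := by
        ext K
        simp only [mem_filter, hmemT, mem_univ, true_and]
        exact ⟨fun h => ⟨h.1.1, h.2⟩, fun h => ⟨⟨h.1, hRp.to_le h.2⟩, h.2⟩⟩
      rw [e1, sum_wt hHR, one_mul]
    rw [Finset.sum_congr rfl fun Q _ => hQ Q, ← Finset.mul_sum, sum_normalizer_sylow, hcardN]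
    push_cast
    ring
  -- the weighted sum of the left hand sides
  have hB : ∑ K ∈ T, wt H K * (Nat.card (pnSet p K) : ℤ) = (Nat.card (pnSet p H) : ℤ) := by
    have split : ∀ K : Subgroup G, (Nat.card (pnSet p K) : ℤ) =
        (∑ g : G, if g ∈ N ∧ g ∈ pnSet p K then (1 : ℤ) else 0) +
        ∑ g : G, if g ∉ N ∧ g ∈ pnSet p K then (1 : ℤ) else 0 := by
      intro K
      rw [card_pnSet_eq_sum, ← Finset.sum_add_distrib]
      refine Finset.sum_congr rfl fun g _ => ?_
      by_cases h : g ∈ N <;> simp [h]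
    have e : ∀ g ∈ N, g ∈ pnSet p H := fun g hg => ⟨H, hH, le_rfl, hg⟩
    rw [Finset.sum_congr rfl fun K _ => by rw [split K, mul_add], Finset.sum_add_distrib, hC,
      split H]
    congr 1
    · rw [Finset.sum_boole, Nat.card_eq_fintype_card, Fintype.card_subtype]
      congr 2
      ext g
      simpa using fun hg => e g hg
    · simp only [Finset.mul_sum]
      rw [Finset.sum_comm]
      refine Finset.sum_congr rfl fun g _ => ?_
      by_cases hg : g ∈ N
      · simp [hg]
      · simp only [hg, not_false_eq_true, true_and, mul_ite, mul_one, mul_zero]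
        rw [← Finset.sum_filter, ← sum_wt_pnSet_of_notMem (p := p) hg]
        refine Finset.sum_congr ?_ fun _ _ => rfl
        ext K
        simp [hmemT, and_assoc]
  rw [← hB, ← hA]
  refine Finset.sum_congr rfl fun K hK => ?_
  rw [hmemT] at hK
  rw [ih K hK.1 hK.2]

/-- The subnormalizer of a `p`-subgroup has `Σ_{Q ⊇ H} |N(Q)|` elements. -/
theorem card_pnSet [Finite G] {p : ℕ} [Fact p.Prime] {H : Subgroup G} (hH : IsPGroup p H)
    (P : Sylow p G) :
    Nat.card (pnSet p H) = Nat.card {Q : Sylow p G // H ≤ (Q : Subgroup G)} *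
      Nat.card (Subgroup.normalizer ((P : Subgroup G) : Set G)) := by
  classical
  haveI : Fintype G := Fintype.ofFinite _
  haveI : Fintype (Sylow p G) := Fintype.ofFinite _
  have h := card_pnSet_aux p (Nat.card G) G le_rfl H hH
  rw [sylSum, ← Finset.sum_filter, Finset.sum_congr rfl fun Q _ => by
    rw [card_normalizer_sylow P Q], Finset.sum_const, nsmul_eq_mul] at h
  rw [Nat.card_eq_fintype_card (α := {Q : Sylow p G // H ≤ (Q : Subgroup G)}),
    Fintype.card_subtype]
  exact_mod_cast h

theorem card_smul_mem {α : Type*} [MulAction G α] (a : α) (B : Set α) :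
    Nat.card {g : G // g • a ∈ B} =
      Nat.card {b : α // b ∈ B ∧ b ∈ MulAction.orbit G a} * Nat.card (MulAction.stabilizer G a) := by
  set e := MulAction.orbitEquivQuotientStabilizer G a
  set t : Set (G ⧸ MulAction.stabilizer G a) := {q | (e.symm q : α) ∈ B}
  have h1 : {g : G // g • a ∈ B} ≃
      ↑((QuotientGroup.mk : G → G ⧸ MulAction.stabilizer G a) ⁻¹' t) :=
    Equiv.subtypeEquivRight fun g => by
      simp [t, e, MulAction.orbitEquivQuotientStabilizer_symm_apply]
  rw [Nat.card_congr h1, Nat.card_congr (QuotientGroup.preimageMkEquivSubgroupProdSet _ t),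
    Nat.card_prod, mul_comm]
  congr 1
  refine Nat.card_congr
    { toFun := fun q => ⟨(e.symm q.1 : α), q.2, (e.symm q.1).2⟩
      invFun := fun b => ⟨e ⟨b.1, b.2.2⟩, by simp [t, b.2.1]⟩
      left_inv := fun q => by simp
      right_inv := fun b => by simp }

/-- The two counts of the elements conjugating `H` into a Sylow subgroup. -/
theorem card_sylow_mul_eq_card_conj_mul [Finite G] {p : ℕ} [Fact p.Prime] (H : Subgroup G)
    (P : Sylow p G) :
    Nat.card {Q : Sylow p G // H ≤ (Q : Subgroup G)} *
        Nat.card (Subgroup.normalizer ((P : Subgroup G) : Set G)) =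
      Nat.card {K : Subgroup G // K ≤ (P : Subgroup G) ∧
          ∃ g : G, K = H.map (MulAut.conj g).toMonoidHom} *
        Nat.card (Subgroup.normalizer (H : Set G)) := by
  letI : MulAction G (Subgroup G) := MulAction.compHom _ (MulAut.conj (G := G))
  have hsmul : ∀ (g : G) (K : Subgroup G), g • K = K.map (MulAut.conj g).toMonoidHom :=
    fun _ _ => rfl
  have hstab : MulAction.stabilizer G H = Subgroup.normalizer (H : Set G) := by
    ext g
    rw [MulAction.mem_stabilizer_iff, hsmul, Subgroup.mem_normalizer_iff]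
    constructor
    · intro e h
      conv_rhs => rw [← e]
      simp [Subgroup.mem_map]
    · intro hg
      ext x
      rw [Subgroup.mem_map_equiv, hg]
      simp [mul_assoc]
  have h1 := card_smul_mem (G := G) P {Q : Sylow p G | H ≤ (Q : Subgroup G)}
  have h2 := card_smul_mem (G := G) H {K : Subgroup G | K ≤ (P : Subgroup G)}
  rw [show MulAction.stabilizer G P = Subgroup.normalizer ((P : Subgroup G) : Set G) from
    P.stabilizer_eq_normalizer] at h1
  rw [hstab] at h2
  have e1 : Nat.card {b : Sylow p G // b ∈ {Q : Sylow p G | H ≤ (Q : Subgroup G)} ∧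
      b ∈ MulAction.orbit G P} = Nat.card {Q : Sylow p G // H ≤ (Q : Subgroup G)} :=
    Nat.card_congr (Equiv.subtypeEquivRight fun Q => by simp [Sylow.orbit_eq_top])
  have e2 : Nat.card {b : Subgroup G // b ∈ {K : Subgroup G | K ≤ (P : Subgroup G)} ∧
      b ∈ MulAction.orbit G H} = Nat.card {K : Subgroup G // K ≤ (P : Subgroup G) ∧
          ∃ g : G, K = H.map (MulAut.conj g).toMonoidHom} :=
    Nat.card_congr (Equiv.subtypeEquivRight fun K => by
      simp [MulAction.mem_orbit_iff, hsmul, eq_comm])
  rw [← e1, ← e2, ← h1, ← h2]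
  refine Nat.card_congr (Equiv.subtypeEquiv (Equiv.inv G) fun g => ?_)
  simp only [Set.mem_setOf_eq, Equiv.inv_apply, hsmul, Sylow.coe_subgroup_smul]
  rw [Subgroup.map_le_iff_le_comap]
  constructor
  · intro h x hx
    have := h hx
    rw [Subgroup.mem_pointwise_smul_iff_inv_smul_mem] at this
    simpa using this
  · intro h x hx
    rw [Subgroup.mem_pointwise_smul_iff_inv_smul_mem]
    simpa using h hx

end CfsgLib.Subnormalizer
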